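import Cfsg.Agent.R2.H28.SL2.Kills
import Cfsg.Agent.R2.H22.P11

/-!
# S5749, S5750, type `22 + 22 + 22`, `p ≥ 5`: the trilinear form on a submodule of type `22` (helper8)

* `alt_all` : an alternating configuration `v s t` with `T (v 0 0) (v 1 1) (v 2 2) = 0` has `T = 0`;
* `nz22` : `T (v 0 0) (v 1 1) (v 2 2) ≠ 0` for the image of a nonzero equivariant map from `V_{2p^i} ⊗ V_{2p^j}`.
-/

set_option autoImplicit false
set_option linter.unusedSectionVars false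
set_option maxHeartbeats 400000

namespace Cfsg.Agent.R2.H8.Core

open Matrix TensorProduct
open Cfsg.Agent.H943.SL2Rel Cfsg.Agent.H943.SL2Mod Cfsg.Agent.H943.RepAdd
open Cfsg.Lie
open Cfsg.Agent.ChevalleyStructure Cfsg.Agent.ChevalleyStructure.E6Form.Cubic
  Cfsg.Agent.ChevalleyStructure.E6Form.Table
open Cfsg.Agent.ChevalleyStructure.E6Min.Basic (Zgrp)
open Cfsg.Agent.ChevalleyStructure.E6Min.Inv
open Cfsg.Agent.H952.F4 (sh cr tf)
open Cfsg.Agent.H952.F4.Jord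
open Cfsg.Agent.R2.GEO (Pair crB crB_apply tfB tfB_apply)
open Cfsg.Agent.R2.H28.SL2

universe u v w x

section Abs

variable {k : Type u} [Field k]

theorem tri12 (x y z : I27 → k) : tf (cr x y) z = tf (cr y x) z := by rw [cr_comm]

theorem tri23 (x y z : I27 → k) : tf (cr x y) z = tf (cr x z) y := by
  rw [tf_cr, cr_comm y z, ← tf_cr]

theorem tfz_right (x : I27 → k) : tf x 0 = 0 := by
  have h := tf_smul_right (0 : k) x 0
  rwa [zero_smul, zero_mul] at h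

theorem tfz_left (x : I27 → k) : tf 0 x = 0 := by rw [tf_comm, tfz_right]

variable {v : Fin 3 → Fin 3 → (I27 → k)} (h2 : (2 : k) ≠ 0)
  (hc : ∀ s s' t t', cr (v s t) (v s' t') + cr (v s t') (v s' t) = 0)

include h2 hc

theorem alt_t12 (s s' s'' t t' t'' : Fin 3) :
    tf (cr (v s t) (v s' t')) (v s'' t'') = -tf (cr (v s t') (v s' t)) (v s'' t'') := by
  have h := hc s s' t t'
  rw [eq_neg_of_add_eq_zero_left h, ← neg_one_smul k, tf_smul_left, neg_one_mul]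

theorem alt_t23 (s s' s'' t t' t'' : Fin 3) :
    tf (cr (v s t) (v s' t')) (v s'' t'') = -tf (cr (v s t) (v s' t'')) (v s'' t') := by
  rw [tri12, tri23, tri12, alt_t12 h2 hc, tri12, tri23, tri12]

theorem alt_s12 (s s' s'' t t' t'' : Fin 3) :
    tf (cr (v s t) (v s' t')) (v s'' t'') = -tf (cr (v s' t) (v s t')) (v s'' t'') := by
  rw [alt_t12 h2 hc, tri12]

theorem self_neg {x : k} (h : x = -x) : x = 0 := by
  have h3 : (2 : k) * x = 0 := by linear_combination h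
  exact (mul_eq_zero.1 h3).resolve_left h2

theorem alt_s (h0 : tf (cr (v 0 0) (v 1 1)) (v 2 2) = 0) (t t' t'' : Fin 3) :
    tf (cr (v 0 t) (v 1 t')) (v 2 t'') = 0 := by
  have e12 := fun t t' t'' : Fin 3 => alt_t12 h2 hc 0 1 2 t t' t''
  have e23 := fun t t' t'' : Fin 3 => alt_t23 h2 hc 0 1 2 t t' t''
  have z12 : ∀ t t'' : Fin 3, tf (cr (v 0 t) (v 1 t)) (v 2 t'') = 0 := fun t t'' => self_neg h2 hc (e12 t t t'')
  have z23 : ∀ t t' : Fin 3, tf (cr (v 0 t) (v 1 t')) (v 2 t') = 0 := fun t t' => self_neg h2 hc (e23 t t' t')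
  have z13 : ∀ t t' : Fin 3, tf (cr (v 0 t) (v 1 t')) (v 2 t) = 0 := fun t t' => by
    rw [e12, z23, neg_zero]
  have c : ∀ t t' t'' : Fin 3, t = t' ∨ t' = t'' ∨ t = t'' ∨ (t = 0 ∧ t' = 1 ∧ t'' = 2) ∨ (t = 1 ∧ t' = 0 ∧ t'' = 2) ∨
      (t = 0 ∧ t' = 2 ∧ t'' = 1) ∨ (t = 1 ∧ t' = 2 ∧ t'' = 0) ∨ (t = 2 ∧ t' = 0 ∧ t'' = 1) ∨
      (t = 2 ∧ t' = 1 ∧ t'' = 0) := by decide
  rcases c t t' t'' with rfl | rfl | rfl | ⟨rfl, rfl, rfl⟩ | ⟨rfl, rfl, rfl⟩ | ⟨rfl, rfl, rfl⟩ | ⟨rfl, rfl, rfl⟩ |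
    ⟨rfl, rfl, rfl⟩ | ⟨rfl, rfl, rfl⟩
  · exact z12 _ _
  · exact z23 _ _
  · exact z13 _ _
  · exact h0
  · rw [e12, h0, neg_zero]
  · rw [e23, h0, neg_zero]
  · rw [e23, e12, h0, neg_zero, neg_zero]
  · rw [e12, e23, h0, neg_zero, neg_zero]
  · rw [e12, e23, e12, h0, neg_zero, neg_zero, neg_zero]

/-- **the trilinear form on an alternating configuration** -/
theorem alt_all (h0 : tf (cr (v 0 0) (v 1 1)) (v 2 2) = 0) (s s' s'' t t' t'' : Fin 3) :
    tf (cr (v s t) (v s' t')) (v s'' t'') = 0 := by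
  have z12 : ∀ s s'' t t' t'', tf (cr (v s t) (v s t')) (v s'' t'') = 0 := fun s s'' t t' t'' =>
    self_neg h2 hc (alt_s12 h2 hc s s s'' t t' t'')
  have z23 : ∀ s s' t t' t'', tf (cr (v s t) (v s' t')) (v s' t'') = 0 := fun s s' t t' t'' => by
    rw [tri12, tri23, z12]
  have z13 : ∀ s s' t t' t'', tf (cr (v s t) (v s' t')) (v s t'') = 0 := fun s s' t t' t'' => by
    rw [tri12, z23]
  have c : ∀ t t' t'' : Fin 3, t = t' ∨ t' = t'' ∨ t = t'' ∨ (t = 0 ∧ t' = 1 ∧ t'' = 2) ∨ (t = 1 ∧ t' = 0 ∧ t'' = 2) ∨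
      (t = 0 ∧ t' = 2 ∧ t'' = 1) ∨ (t = 1 ∧ t' = 2 ∧ t'' = 0) ∨ (t = 2 ∧ t' = 0 ∧ t'' = 1) ∨
      (t = 2 ∧ t' = 1 ∧ t'' = 0) := by decide
  rcases c s s' s'' with rfl | rfl | rfl | ⟨rfl, rfl, rfl⟩ | ⟨rfl, rfl, rfl⟩ | ⟨rfl, rfl, rfl⟩ | ⟨rfl, rfl, rfl⟩ |
    ⟨rfl, rfl, rfl⟩ | ⟨rfl, rfl, rfl⟩
  · exact z12 _ _ _ _ _
  · exact z23 _ _ _ _ _
  · exact z13 _ _ _ _ _
  · exact alt_s h2 hc h0 _ _ _
  · rw [tri12]; exact alt_s h2 hc h0 _ _ _
  · rw [tri23]; exact alt_s h2 hc h0 _ _ _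
  · rw [tri23, tri12]; exact alt_s h2 hc h0 _ _ _
  · rw [tri12, tri23]; exact alt_s h2 hc h0 _ _ _
  · rw [tri12, tri23, tri12]; exact alt_s h2 hc h0 _ _ _

/-- the cubic form vanishes -/
theorem alt_N (h3 : (3 : k) ≠ 0) (h0 : tf (cr (v 0 0) (v 1 1)) (v 2 2) = 0) : ∀ x ∈ Xv v, cubicT x = 0 := by
  have key : ∀ x ∈ Xv v, ∀ y ∈ Xv v, ∀ z ∈ Xv v, tf (cr x y) z = 0 := by
    intro x hx y hy z hz
    unfold Xv at hx hy hz
    induction hx using Submodule.span_induction with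
    | mem x hx =>
      obtain ⟨⟨s, t⟩, rfl⟩ := hx
      induction hy using Submodule.span_induction with
      | mem y hy =>
        obtain ⟨⟨s', t'⟩, rfl⟩ := hy
        induction hz using Submodule.span_induction with
        | mem z hz =>
          obtain ⟨⟨s'', t''⟩, rfl⟩ := hz
          exact alt_all h2 hc h0 _ _ _ _ _ _
        | zero => exact tfz_right _
        | add y z _ _ hy hz => rw [tf_add_right, hy, hz, add_zero]
        | smul c y _ hy => rw [tf_smul_right, hy, mul_zero]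
      | zero => rw [crz_right, tfz_left]
      | add y z _ _ hy hz => rw [cr_add_right, tf_add_left, hy, hz, add_zero]
      | smul c y _ hy => rw [cr_smul_right, tf_smul_left, hy, mul_zero]
    | zero => rw [crz_left, tfz_left]
    | add y z _ _ hy hz => rw [cr_add_left, tf_add_left, hy, hz, add_zero]
    | smul c y _ hy => rw [cr_smul_left, tf_smul_left, hy, mul_zero]
  intro x hx
  have h := key x hx x hx x hx
  rw [cr_self, tf_smul_left, tf_sh_self] at h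
  exact (mul_eq_zero.1 ((mul_eq_zero.1 h).resolve_left h2)).resolve_left h3

end Abs

variable {k : Type u} [Field k] [DecidableEq k] [IsAlgClosed k] {K : Type w} [Field K] [Fintype K] [DecidableEq K]
  (ι : K →+* k) {p a : ℕ} [Fact p.Prime] [CharP k p] [CharP K p]
  {ψ : SpecialLinearGroup (Fin 2) K →* ↥(Zgrp k)} {ρ ρ' : Representation k ↥(Zgrp k) (I27 → k)}

section

variable {A : Type x} [AddCommGroup A] [Module k A] [FiniteDimensional k A] {B : Type x} [AddCommGroup B] [Module k B]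
  [FiniteDimensional k B] {σ : Representation k (SpecialLinearGroup (Fin 2) K) A}
  {τ : Representation k (SpecialLinearGroup (Fin 2) K) B}

/-- the alternating property -/
theorem alt22 (f : Fra p a ψ ρ ρ') (hp4 : 4 < p) {i j : ℕ} (hij : i ≠ j) (hi : i < a) (hj : j < a)
    (hσ : IsV ι p σ (2 * p ^ i)) (hτ : IsV ι p τ (2 * p ^ j)) {E : A ⊗[k] B →ₗ[k] (I27 → k)}
    (hE : ∀ g x, E (σ.tprod τ g x) = Rr ρ ψ g (E x))
    (hno : ∀ c, InSoc ι p (Rr ρ' ψ) c → c ≠ 4 * p ^ i + 4 * p ^ j ∧ c ≠ 4 * p ^ i ∧ c ≠ 4 * p ^ j) (s s' : A) (t t' : B) :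
    cr (E (s ⊗ₜ t)) (E (s' ⊗ₜ t')) + cr (E (s ⊗ₜ t')) (E (s' ⊗ₜ t)) = 0 := by
  let β : A ⊗[k] B →ₗ[k] A ⊗[k] B →ₗ[k] (I27 → k) := (crB k).compl₁₂ E E
  have hβ : ∀ x y, β x y = cr (E x) (E y) := fun x y => rfl
  refine quad_zero ι p σ τ (Rr ρ' ψ) β (fun x y => by rw [hβ, hβ, cr_comm]) (fun g x y => by
    rw [hβ, hβ, hE, hE]
    exact pair_cr f.pair (ψ g) _ _) ?_ s s' t t'
  rw [cf_sqsq ι f.card hp4 hij hi hj hσ hτ]
  intro c hc h
  have h1 := hno c h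
  simp only [Multiset.insert_eq_cons, Multiset.mem_cons, Multiset.mem_singleton] at hc
  rcases hc with rfl | rfl | rfl | rfl
  · exact h1.1 rfl
  · exact h1.2.1 rfl
  · exact h1.2.2 rfl
  · exact f.swap.soc_ne_zero ι h rfl

/-- equivariant maps from `V_{2p^i} ⊗ V_{2p^j}` are injective -/
theorem inj22 (f : Fra p a ψ ρ ρ') (hp4 : 4 < p) {i j : ℕ} (hij : i ≠ j) 
    (hσ : IsV ι p σ (2 * p ^ i)) (hτ : IsV ι p τ (2 * p ^ j)) {E : A ⊗[k] B →ₗ[k] (I27 → k)}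
    (hE : ∀ g x, E (σ.tprod τ g x) = Rr ρ ψ g (E x)) (h0 : E ≠ 0) : Function.Injective E := by
  have hirr := (isV_tens ι p f.card hσ hτ fun l _ => digit_disj p (by omega) (by omega) hij l).irr
  rcases hirr.2 (LinearMap.ker E) (fun g x hx => by
    rw [LinearMap.mem_ker] at hx ⊢
    rw [hE, hx, map_zero]) with h | h
  · exact LinearMap.ker_eq_bot.1 h
  · exact absurd (LinearMap.ker_eq_top.1 h) h0

/-- **the trilinear form does not vanish** -/
theorem nz22 (f : Fra p a ψ ρ ρ') (hp4 : 4 < p) {i j : ℕ} (hij : i ≠ j) (hi : i < a) (hj : j < a)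
    (hσ : IsV ι p σ (2 * p ^ i)) (hτ : IsV ι p τ (2 * p ^ j)) {E : A ⊗[k] B →ₗ[k] (I27 → k)}
    (hE : ∀ g x, E (σ.tprod τ g x) = Rr ρ ψ g (E x)) (h0 : E ≠ 0)
    (hno : ∀ c, InSoc ι p (Rr ρ' ψ) c → c ≠ 4 * p ^ i + 4 * p ^ j ∧ c ≠ 4 * p ^ i ∧ c ≠ 4 * p ^ j)
    (bA : Module.Basis (Fin 3) k A) (bB : Module.Basis (Fin 3) k B) :
    tf (cr (E (bA 0 ⊗ₜ bB 0)) (E (bA 1 ⊗ₜ bB 1))) (E (bA 2 ⊗ₜ bB 2)) ≠ 0 := by
  intro hT
  have h2 : (2 : k) ≠ 0 := two_ne f.odd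
  have h3 : (3 : k) ≠ 0 := three_ne (p := p) (by omega)
  have hEi := inj22 ι f hp4 hij hσ hτ hE h0
  have hX : ∀ g, ∀ x ∈ LinearMap.range E, Rr ρ ψ g x ∈ LinearMap.range E := by
    rintro g _ ⟨x, rfl⟩
    exact ⟨_, hE g x⟩
  have hb : IsV ι p (subRep (Rr ρ ψ) (LinearMap.range E) hX) (2 * p ^ i + 2 * p ^ j) :=
    IsV.iso ι p (LinearEquiv.ofInjective E hEi) (fun g x => Subtype.ext (hE g x))
      (isV_tens ι p f.card hσ hτ fun l _ => digit_disj p (by omega) (by omega) hij l)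
  let v : Fin 3 → Fin 3 → (I27 → k) := fun s t => E (bA s ⊗ₜ bB t)
  have hc : ∀ s s' t t', cr (v s t) (v s' t') + cr (v s t') (v s' t) = 0 := fun s s' t t' =>
    alt22 ι f hp4 hij hi hj hσ hτ hE hno _ _ _ _
  have hvX : Xv v = LinearMap.range E := by
    apply le_antisymm
    · refine Submodule.span_le.2 ?_
      rintro _ ⟨⟨s, t⟩, rfl⟩
      exact ⟨_, rfl⟩
    · rintro _ ⟨y, rfl⟩
      rw [← (bA.tensorProduct bB).sum_repr y, map_sum]
      refine Submodule.sum_mem _ fun st _ => ?_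
      rw [map_smul]
      refine Submodule.smul_mem _ _ ?_
      rw [Module.Basis.tensorProduct_apply']
      exact Submodule.subset_span ⟨st, rfl⟩
  have hIy : ∀ g, ∀ y ∈ Iy v, Rr ρ' ψ g y ∈ Iy v := by
    intro g y hy
    unfold Iy at hy
    induction hy using Submodule.span_induction with
    | mem y hy =>
      obtain ⟨⟨m, n⟩, rfl⟩ := hy
      show ρ' (ψ g) (cr _ _) ∈ _
      rw [← pair_cr f.pair]
      refine cr_Xv h2 hc ?_ ?_
      · rw [hvX]
        exact hX g _ ⟨_, rfl⟩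
      · rw [hvX]
        exact hX g _ ⟨_, rfl⟩
    | zero => rw [map_zero]; exact Submodule.zero_mem _
    | add y z _ _ hy hz => rw [map_add]; exact Submodule.add_mem _ hy hz
    | smul c y _ hy => rw [map_smul]; exact Submodule.smul_mem _ _ hy
  have hts : ¬ ∀ x ∈ LinearMap.range E, sh x = 0 := by
    intro h5
    obtain ⟨l, hl⟩ := f.ts_irr ι hX hb h5
    have hdX := hb.dim_pair ι f.card (by omega) (by omega) hij hi hj
    rw [hl] at hb
    have h6 := hb.dim_single ι f.card (by omega)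
    omega
  have hss : ∀ x ∈ Xv v, sh (sh x) = 0 := by
    intro x hx
    rw [sh_sh, alt_N h2 hc h3 hT x hx, zero_smul]
  have hI := sh_Iy h2 hc hss
  let γ : LinearMap.range E →ₗ[k] LinearMap.range E →ₗ[k] (Iy v) := LinearMap.mk₂ k
    (fun x y => ⟨cr (x : I27 → k) y, cr_Xv h2 hc (by rw [hvX]; exact x.2) (by rw [hvX]; exact y.2)⟩)
    (fun x x' y => Subtype.ext (cr_add_left _ _ _)) (fun c x y => Subtype.ext (cr_smul_left _ _ _))
    (fun x y y' => Subtype.ext (cr_add_right _ _ _)) (fun c x y => Subtype.ext (cr_smul_right _ _ _))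
  obtain ⟨c, hc1, hc2⟩ := soc_of_sq ι p (σ := subRep (Rr ρ ψ) (LinearMap.range E) hX)
    (ρ := subRep (Rr ρ' ψ) (Iy v) hIy) γ
    (fun x y => Subtype.ext (cr_comm _ _)) (fun g x y => Subtype.ext (pair_cr f.pair (ψ g) _ _)) (fun h0 => hts fun x hx => by
      have h6 : γ ⟨x, hx⟩ ⟨x, hx⟩ = 0 := by rw [h0]; rfl
      have h7 : cr x x = 0 := congrArg Subtype.val h6
      rw [cr_self, smul_eq_zero] at h7
      exact h7.resolve_left h2)
  obtain ⟨Y, hY, hcY⟩ := hc2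
  obtain ⟨hY', e', he'⟩ := eqv_map (subRep (Rr ρ' ψ) (Iy v) hIy) (Rr ρ' ψ) (Iy v).subtype (fun _ _ => rfl)
    (Iy v).injective_subtype Y hY
  have hc3 := IsV.iso ι p e' he' hcY
  obtain ⟨l, hl⟩ := f.swap.ts_irr ι hY' hc3 (by
    rintro _ ⟨y, -, rfl⟩
    exact hI _ y.2)
  have hd : Module.finrank k ↥(Submodule.map (Iy v).subtype Y) = 3 := by
    rw [hl] at hc3
    exact hc3.dim_single ι f.card (by omega)
  rw [sq_22 ι p f.card hp4 hij hi hj hb] at hc1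
  simp only [Multiset.insert_eq_cons, Multiset.mem_cons, Multiset.mem_singleton] at hc1
  rcases hc1 with h6 | h6 | h6 | h6 | h6
  · rw [h6] at hc3
    have := hc3.dim_pair ι f.card (by omega) (by omega) hij hi hj
    omega
  · rw [h6] at hc3
    have := hc3.dim_single ι f.card (by omega)
    omega
  · rw [h6] at hc3
    have := hc3.dim_single ι f.card (by omega)
    omega
  · rw [h6] at hc3
    have := hc3.dim_pair ι f.card (by omega) (by omega) hij hi hj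
    omega
  · rw [hl] at h6
    have := Nat.pow_pos (n := l) (show 0 < p by omega)
    omega

end

end Cfsg.Agent.R2.H8.Core
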